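import Cfsg.Agent.ZJ.ZJ
import Cfsg.Agent.ZJ.Stable
import Cfsg.Agent.StableQuot.Control
import Cfsg.Agent.Transfer.FrattiniP
import Cfsg.Agent.PCore.OmegaFix

/-!
`Z(J(P))` is normal, for `J` generated by the elementary abelian subgroups of largest order, in a stable group with
`C(O_p) ≤ O_p`, `p` odd.
-/

set_option autoImplicit false
set_option linter.style.haveILetI false

namespace CfsgLib.ZJCenter

open CfsgLib.ZJ
open scoped commutatorElement Pointwise

universe u

variable {p : ℕ}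

/-- The centre of `J`, inside the group. -/
def Z (p : ℕ) {G : Type*} [Group G] (S : Subgroup G) : Subgroup G :=
  J p true S ⊓ Subgroup.centralizer (J p true S : Set G)

theorem centerThompsonOf_eq {G : Type*} [Group G] (S : Subgroup G) : Cfsg.centerThompsonOf p S = Z p S := by
  rw [Cfsg.centerThompsonOf, ZJ.thompsonSubgroupOf_eq, Z]

theorem Z_le {G : Type*} [Group G] (S : Subgroup G) : Z p S ≤ S := inf_le_left.trans (J_le S)

theorem Z_map {G H : Type*} [Group G] [Group H] (f : G →* H) {S : Subgroup G} (hf : ∀ x ∈ S, f x = 1 → x = 1) :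
    Z p (S.map f) = (Z p S).map f := by
  ext y
  rw [Z, Z, Subgroup.mem_inf, J_map f hf]
  constructor
  · rintro ⟨⟨x, hx, rfl⟩, hc⟩
    refine ⟨x, ⟨hx, Subgroup.mem_centralizer_iff.2 fun h hh => ?_⟩, rfl⟩
    have h1 := Subgroup.mem_centralizer_iff.1 hc (f h) (Subgroup.mem_map_of_mem f hh)
    have hmem := S.mul_mem (S.inv_mem (S.mul_mem (J_le S hx) (J_le S hh))) (S.mul_mem (J_le S hh) (J_le S hx))
    exact (inv_mul_eq_one.1 (hf _ hmem (by rw [map_mul, map_inv, map_mul, map_mul, h1, inv_mul_cancel]))).symm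
  · rintro ⟨x, ⟨hx, hc⟩, rfl⟩
    refine ⟨Subgroup.mem_map_of_mem f hx, Subgroup.mem_centralizer_iff.2 ?_⟩
    rintro _ ⟨h, hh, rfl⟩
    rw [← map_mul, ← map_mul, Subgroup.mem_centralizer_iff.1 hc h hh]

theorem normalizer_le_normalizer_Z {G : Type*} [Group G] (S : Subgroup G) :
    Subgroup.normalizer (S : Set G) ≤ Subgroup.normalizer (Z p S : Set G) := by
  intro g hg
  rw [Subgroup.mem_normalizer_iff_map_conj_eq] at hg ⊢
  have h := Z_map (p := p) (MulAut.conj g).toMonoidHom (S := S)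
    (fun x _ hx => (MulAut.conj g).injective (hx.trans (map_one (MulAut.conj g)).symm))
  exact h.symm.trans (congrArg (Z p) hg)

theorem Z_comm {G : Type*} [Group G] {S : Subgroup G} {x y : G} (hx : x ∈ Z p S) (hy : y ∈ Z p S) :
    x * y = y * x :=
  Subgroup.mem_centralizer_iff.1 hy.2 x hx.1

theorem Z_ne_bot {G : Type*} [Group G] [Finite G] [Fact p.Prime] {S : Subgroup G} (hS : IsPGroup p S) (h : S ≠ ⊥) :
    Z p S ≠ ⊥ := fun h0 => ZJ.W_ne_bot (p := p) (el := true) hS h (le_bot_iff.1 ((W_le_centerJ S).trans h0.le))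

/-- `C(O_p) ≤ O_p` passes to normal subgroups. -/
theorem centralizer_pCore_normal {G : Type u} [Group G] [Finite G] [hp : Fact p.Prime]
    (hc : Subgroup.centralizer (Cfsg.pCore p G : Set G) ≤ Cfsg.pCore p G) (N : Subgroup G) [N.Normal] :
    Subgroup.centralizer (Cfsg.pCore p N : Set N) ≤ Cfsg.pCore p N := by
  haveI := Cfsg.pCore_normal p G
  haveI := Cfsg.pCore_normal p N
  set C := Subgroup.centralizer (Cfsg.pCore p N : Set N)
  refine CfsgLib.PCore.le_pCore Subgroup.normal_centralizer (CfsgLib.PCore.isPGroup_of_forall_coprime C fun c hc' hco => ?_)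
  set K := Cfsg.pCore p G with hK
  have hKp := CfsgLib.PCore.isPGroup_pCore p G
  have hcN : (c : G) ∈ Subgroup.centralizer ((K ⊓ N : Subgroup G) : Set G) := by
    refine Subgroup.mem_centralizer_iff.2 fun v hv => ?_
    have h1 : (⟨v, hv.2⟩ : N) ∈ Cfsg.pCore p N :=
      CfsgLib.PCore.le_pCore (N := K.subgroupOf N) inferInstance hKp.comap_subtype hv.1
    exact congrArg Subtype.val (Subgroup.mem_centralizer_iff.1 hc' _ h1)
  have hcK : (c : G) ∈ Subgroup.centralizer (K : Set G) := by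
    refine CfsgLib.CoprimeAction.le_centralizer_of_chain (A := Subgroup.zpowers (c : G)) (N := K ⊓ N) (K := K) ?_
      (Subgroup.zpowers_le.2 hcN) ?_ (Subgroup.mem_zpowers _)
    · obtain ⟨n, hn⟩ := IsPGroup.iff_card.1 (hKp.to_le (inf_le_left : K ⊓ N ≤ K))
      rw [Nat.card_zpowers, hn, Subgroup.orderOf_coe]
      exact hco.pow_right n
    · exact (Subgroup.commutator_mono le_rfl (Subgroup.zpowers_le.2 c.2)).trans (Subgroup.commutator_le_inf K N)
  obtain ⟨n, hn⟩ := hKp ⟨(c : G), hc hcK⟩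
  refine orderOf_eq_one_iff.1 (Nat.eq_one_of_dvd_coprimes (hco.pow_right n) dvd_rfl ?_)
  exact orderOf_dvd_of_pow_eq_one (Subtype.ext (by simpa using congrArg Subtype.val hn))

theorem Z_le_pCore {G : Type u} [Group G] [Finite G] [Fact p.Prime]
    (hc : Subgroup.centralizer (Cfsg.pCore p G : Set G) ≤ Cfsg.pCore p G)
    (hst : Cfsg.IsNormalizerPStable p G) (P : Sylow p G) : Z p (P : Subgroup G) ≤ Cfsg.pCore p G := by
  intro z hz
  set K := Cfsg.pCore p G with hK
  haveI hKn : K.Normal := Cfsg.pCore_normal p G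
  haveI : (Subgroup.centralizer (K : Set G)).Normal := Subgroup.normal_centralizer
  refine mem_of_normal_isPGroup_quotient (Subgroup.centralizer (K : Set G))
    ((CfsgLib.PCore.isPGroup_pCore p G).to_le hc)
    (ZJ.isPStableOn_of_isNormalizerPStable hst K (CfsgLib.PCore.isPGroup_pCore p G) z ?_)
  have h1 : ⁅K, Subgroup.zpowers z⁆ ≤ Z p (P : Subgroup G) := by
    refine Subgroup.commutator_le.2 fun k hk a ha => ?_
    have hkN := normalizer_le_normalizer_Z (p := p) (P : Subgroup G)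
      (Subgroup.le_normalizer (CfsgLib.PCore.pCore_le_sylow P hk))
    have ha' : a ∈ Z p (P : Subgroup G) := Subgroup.zpowers_le.2 hz ha
    rw [commutatorElement_def]
    exact mul_mem ((Subgroup.mem_normalizer_iff.1 hkN a).1 ha') (inv_mem ha')
  rw [Subgroup.commutator_eq_bot_iff_le_centralizer]
  exact fun x hx => Subgroup.mem_centralizer_iff.2 fun a ha => Z_comm (Subgroup.zpowers_le.2 hz ha) (h1 hx)

theorem comm_pow_of_central {G : Type*} [Group G] {x u : G} (hc : ⁅x, u⁆ ∈ Subgroup.center G) (n : ℕ) :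
    ⁅x ^ n, u⁆ = ⁅x, u⁆ ^ n := by
  induction n with
  | zero => simp
  | succ n ih =>
    rw [pow_succ', pow_succ ⁅x, u⁆, commutator_mul_left, ih,
      Subgroup.mem_center_iff.1 (Subgroup.pow_mem _ hc n) x, mul_inv_cancel_right]

set_option maxHeartbeats 800000 in
/-- The inductive step, when `G` is the normal closure of `J(P)`. -/
theorem inf_normal_of_closure {G : Type u} [Group G] [Finite G] [hp : Fact p.Prime] (hp2 : p ≠ 2)
    (hst : Cfsg.IsNormalizerPStable p G) (P : Sylow p G)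
    (htop : Subgroup.normalClosure (J p true (P : Subgroup G) : Set G) = ⊤) :
    ∀ (n : ℕ) (B : Subgroup G), Nat.card B = n → B.Normal → IsPGroup p B →
      (B ⊓ Z p (P : Subgroup G)).Normal := by
  intro n
  induction n using Nat.strong_induction_on with
  | _ n ih =>
  intro B hBn hBnorm hBp
  set S := (P : Subgroup G) with hSdef
  set Zs := Z p S with hZ
  have hPZ : S ≤ Subgroup.normalizer (Zs : Set G) := Subgroup.le_normalizer.trans (normalizer_le_normalizer_Z S)
  have hcentral : ∀ M : Subgroup G, M.Normal → M ≤ Zs → M ≤ Subgroup.center G := by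
    intro M hM hMZ
    haveI := hM
    haveI : (Subgroup.centralizer (M : Set G)).Normal := Subgroup.normal_centralizer
    have h1 : (⊤ : Subgroup G) ≤ Subgroup.centralizer (M : Set G) := by
      rw [← htop]
      refine Subgroup.normalClosure_le_normal fun j hj => Subgroup.mem_centralizer_iff.2 fun m hm => ?_
      exact (Subgroup.mem_centralizer_iff.1 (hMZ hm).2 j hj).symm
    intro m hm
    exact Subgroup.mem_center_iff.2 fun g => (Subgroup.mem_centralizer_iff.1 (h1 (Subgroup.mem_top g)) m hm).symm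
  by_cases hB0 : B = ⊥
  · subst hB0; rw [bot_inf_eq]; infer_instance
  by_cases hB1 : Subgroup.normalClosure ((B ⊓ Zs : Subgroup G) : Set G) = B
  swap
  · set B1 := Subgroup.normalClosure ((B ⊓ Zs : Subgroup G) : Set G) with hB1def
    have hle : B1 ≤ B := Subgroup.normalClosure_le_normal (fun x hx => hx.1)
    have hlt : Nat.card B1 < n := hBn ▸ lt_of_le_of_ne (Subgroup.card_le_of_le hle)
      (fun e => hB1 (Subgroup.eq_of_le_of_card_ge hle e.ge))
    have heq : B1 ⊓ Zs = B ⊓ Zs := le_antisymm (inf_le_inf_right _ hle)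
      (le_inf (fun x hx => Subgroup.subset_normalClosure hx) inf_le_right)
    rw [← heq]
    exact ih _ hlt B1 rfl Subgroup.normalClosure_normal (hBp.to_le hle)
  have hBP : B ≤ S := (CfsgLib.PCore.le_pCore hBnorm hBp).trans (CfsgLib.PCore.pCore_le_sylow P)
  have hgen : ∀ q : Subgroup G, (∀ x ∈ B ⊓ Zs, ∀ g : G, g * x * g⁻¹ ∈ q) → B ≤ q := by
    intro q hq
    rw [← hB1, Subgroup.normalClosure, Subgroup.closure_le]
    intro y hy
    obtain ⟨x, hx, hc⟩ := Group.mem_conjugatesOfSet_iff.1 hy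
    obtain ⟨g, rfl⟩ := isConj_iff.1 hc
    exact hq x hx g
  -- the Frattini subgroup of `B`
  set Φ := CfsgLib.Transfer.phi B with hΦ
  have hΦn : Φ.Normal := ⟨fun x hx g => (Subgroup.mem_normalizer_iff.1 (CfsgLib.Transfer.mem_normalizer_phi
    (Q := B) (g := g) (by rw [Subgroup.normalizer_eq_top]; trivial)) x).1 hx⟩
  have hΦlt : Nat.card Φ < n := by
    obtain ⟨x, hx, hxΦ⟩ := CfsgLib.Transfer.exists_not_mem_phi hB0
    rw [← hBn]
    refine lt_of_le_of_ne (Subgroup.card_le_of_le (CfsgLib.Transfer.phi_le B)) fun e => hxΦ ?_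
    rw [Subgroup.eq_of_le_of_card_ge (CfsgLib.Transfer.phi_le B) e.ge]
    exact hx
  have hΦZ : Φ ⊓ Zs ≤ Subgroup.center G :=
    hcentral _ (ih _ hΦlt Φ rfl hΦn (hBp.to_le (CfsgLib.Transfer.phi_le B))) inf_le_right
  have hB'Φ : ⁅B, B⁆ ≤ Φ := Subgroup.commutator_le.2 fun a ha b hb => CfsgLib.Transfer.commutatorElement_mem_phi hBp ha hb
  haveI hM : (⁅B, B⁆ ⊓ Zs).Normal := by
    have hle : ⁅B, B⁆ ⊓ Zs ≤ Subgroup.center G := (inf_le_inf_right _ hB'Φ).trans hΦZ
    exact ⟨fun x hx g => by rwa [Subgroup.mem_center_iff.1 (hle hx) g, mul_inv_cancel_right]⟩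
  -- `B' ≤ Z`
  have hB'Z : ⁅B, B⁆ ≤ Zs := by
    set π := QuotientGroup.mk' (⁅B, B⁆ ⊓ Zs) with hπ
    haveI : (B.map π).Normal := hBnorm.map _ (QuotientGroup.mk'_surjective _)
    haveI : (Subgroup.centralizer (B.map π : Set (G ⧸ (⁅B, B⁆ ⊓ Zs)))).Normal := Subgroup.normal_centralizer
    have h1 : B ≤ (Subgroup.centralizer (B.map π : Set (G ⧸ (⁅B, B⁆ ⊓ Zs)))).comap π := by
      calc B = Subgroup.normalClosure ((B ⊓ Zs : Subgroup G) : Set G) := hB1.symm
        _ ≤ _ := by
          refine Subgroup.normalClosure_le_normal fun x hx => Subgroup.mem_centralizer_iff.2 ?_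
          rintro _ ⟨y, hy, rfl⟩
          have h2 : ⁅y, x⁆ ∈ ⁅B, B⁆ ⊓ Zs := by
            refine ⟨Subgroup.commutator_mem_commutator hy hx.1, ?_⟩
            rw [commutatorElement_def]
            exact Zs.mul_mem ((Subgroup.mem_normalizer_iff.1 (hPZ (hBP hy)) x).1 hx.2) (Zs.inv_mem hx.2)
          rw [← commutatorElement_eq_one_iff_mul_comm, ← map_commutatorElement]
          exact (QuotientGroup.eq_one_iff _).2 h2
    refine Subgroup.commutator_le.2 fun x hx y hy => ?_
    have h3 := Subgroup.mem_centralizer_iff.1 (h1 hy) (π x) ⟨x, hx, rfl⟩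
    have h4 : π ⁅x, y⁆ = 1 := by
      rw [map_commutatorElement, commutatorElement_eq_one_iff_mul_comm]; exact h3
    exact ((QuotientGroup.eq_one_iff _).1 h4).2
  have hB'c : ∀ a ∈ B, ∀ b ∈ B, ⁅a, b⁆ ∈ Subgroup.center G := fun a ha b hb =>
    hΦZ ⟨hB'Φ (Subgroup.commutator_mem_commutator ha hb), hB'Z (Subgroup.commutator_mem_commutator ha hb)⟩
  have hpc : ∀ x ∈ B ⊓ Zs, x ^ p ∈ Subgroup.center G := fun x hx =>
    hΦZ ⟨CfsgLib.Transfer.pow_mem_phi hBp hx.1, Zs.pow_mem hx.2 p⟩
  have hconjB : ∀ x ∈ B ⊓ Zs, ∀ g : G, g * x * g⁻¹ ∈ B := fun x hx g => hBnorm.conj_mem x hx.1 g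
  have hconjp : ∀ x ∈ B ⊓ Zs, ∀ g : G, (g * x * g⁻¹) ^ p = x ^ p := fun x hx g => by
    rw [conj_pow, Subgroup.mem_center_iff.1 (hpc x hx) g, mul_inv_cancel_right]
  -- `B'` has exponent `p`
  have hexp : ∀ a ∈ B, ∀ b ∈ B, ⁅a, b⁆ ^ p = 1 := by
    let T : Subgroup G :=
      { carrier := {a | a ∈ B ∧ ∀ b ∈ B, ⁅a, b⁆ ^ p = 1}
        one_mem' := ⟨B.one_mem, fun b _ => by simp⟩
        mul_mem' := fun {a a'} ha ha' => ⟨B.mul_mem ha.1 ha'.1, fun b hb => by
          rw [commutator_mul_left, Subgroup.mem_center_iff.1 (hB'c a' ha'.1 b hb) a, mul_inv_cancel_right,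
            (show Commute ⁅a', b⁆ ⁅a, b⁆ from (Subgroup.mem_center_iff.1 (hB'c a' ha'.1 b hb) _).symm).mul_pow,
            ha'.2 b hb, ha.2 b hb, one_mul]⟩
        inv_mem' := fun {a} ha => ⟨B.inv_mem ha.1, fun b hb => by
          have e : ⁅a⁻¹, b⁆ = a⁻¹ * ⁅a, b⁆⁻¹ * a := by simp only [commutatorElement_def]; group
          rw [e, Subgroup.mem_center_iff.1 (inv_mem (hB'c a ha.1 b hb)) a⁻¹, inv_mul_cancel_right, inv_pow,
            ha.2 b hb, inv_one]⟩ }
    intro a ha
    refine ((hgen T fun x hx g => ⟨hconjB x hx g, fun b hb => ?_⟩) ha).2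
    rw [← comm_pow_of_central (hB'c _ (hconjB x hx g) b hb), hconjp x hx g, commutatorElement_eq_one_iff_mul_comm]
    exact (Subgroup.mem_center_iff.1 (hpc x hx) b).symm
  -- a conjugate differs from the element by an element of order `p`
  have hdiff : ∀ x ∈ B ⊓ Zs, ∀ g : G, g * x * g⁻¹ * x⁻¹ ∈ B ∧ (g * x * g⁻¹ * x⁻¹) ^ p = 1 := by
    intro x hx g
    refine ⟨B.mul_mem (hconjB x hx g) (B.inv_mem hx.1), ?_⟩
    have hz : ∀ a b : B, ⁅a, b⁆ ∈ Subgroup.center B := fun a b =>
      Subgroup.mem_center_iff.2 fun c => Subtype.ext (Subgroup.mem_center_iff.1 (hB'c a a.2 b b.2) (c : G))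
    have h := congrArg Subtype.val
      (CfsgLib.PCore.mul_pow_of_class_two hz (⟨_, hconjB x hx g⟩ : B) ⟨x⁻¹, B.inv_mem hx.1⟩ p)
    simp only [Subgroup.coe_pow, Subgroup.coe_mul] at h
    obtain ⟨m, hm⟩ := hp.out.odd_of_ne_two hp2
    have he : p * (p - 1) / 2 = p * m := by
      rw [show p - 1 = m * 2 by omega, ← mul_assoc, Nat.mul_div_cancel _ two_pos]
    rw [h, he, pow_mul, hconjp x hx g, inv_pow, mul_inv_cancel, one_mul]
    have h1 := hexp x⁻¹ (B.inv_mem hx.1) _ (hconjB x hx g)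
    simp only [commutatorElement_def, Subgroup.coe_mul, Subgroup.coe_inv] at h1 ⊢
    rw [h1, one_pow]
  have hB2 : ⁅⁅B, B⁆, B⁆ = ⊥ := by
    rw [Subgroup.commutator_eq_bot_iff_le_centralizer]
    refine Subgroup.commutator_le.2 fun a ha b hb => Subgroup.mem_centralizer_iff.2 fun c _ => ?_
    exact Subgroup.mem_center_iff.1 (hB'c a ha b hb) c
  -- the core of the normalizer
  set L := (Subgroup.normalizer ((B ⊓ Zs : Subgroup G) : Set G)).normalCore with hL
  have hLN : L ≤ Subgroup.normalizer ((B ⊓ Zs : Subgroup G) : Set G) := Subgroup.normalCore_le _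
  by_cases hJL : J p true S ≤ L
  · rw [← Subgroup.normalizer_eq_top_iff, eq_top_iff, ← htop]
    exact (Subgroup.normalClosure_le_normal hJL).trans hLN
  exfalso
  set F := {A | A ∈ maxGood p true S ∧ ¬ A ≤ L} with hF
  have hFne : F.Nonempty := by
    by_contra h
    apply hJL
    refine sSup_le fun A hA => ?_
    by_contra hAL
    exact h ⟨A, hA, hAL⟩
  obtain ⟨A, ⟨hA, hAL⟩, hAmax⟩ := Set.exists_max_image F
    (fun A => Nat.card (A ⊓ B : Subgroup G)) (Set.toFinite _) hFne
  have hB'A : ⁅B, B⁆ ≤ A := Subgroup.commutator_le.2 fun a ha b hb =>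
    mem_of_maxGood hA (hBP (Subgroup.commutator_le_self B (Subgroup.commutator_mem_commutator ha hb)))
      (fun c _ => Subgroup.mem_center_iff.1 (hB'c a ha b hb) c) (fun _ => hexp a ha b hb)
  have hBA : B ≤ Subgroup.normalizer (A : Set G) := by
    by_contra hn
    obtain ⟨A', hA', hlt, hn'⟩ := exists_maxGood_gt hA (P.2.to_le (sup_le hA.1 hBP))
      (le_top.trans_eq (Subgroup.normalizer_eq_top _).symm) (hBP.trans Subgroup.le_normalizer)
      hB'A hB2 (Or.inl hp2) hn
    have hA'L : A' ≤ L := by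
      by_contra h
      exact hlt.ne (Subgroup.eq_of_le_of_card_ge hlt.le (hAmax A' ⟨hA', h⟩))
    obtain ⟨T, hT⟩ := CfsgLib.Transfer.exists_sylow_map_eq_inf P L
    set PL := (T : Subgroup L).map L.subtype with hPL
    have hfr : Subgroup.normalizer (PL : Set G) ⊔ L = ⊤ := Sylow.normalizer_sup_eq_top T
    have hPLle : PL ≤ S := by rw [hT]; exact inf_le_left
    have hA'PL : A' ≤ PL := by rw [hT]; exact le_inf hA'.1 hA'L
    have hJle : J p true PL ≤ J p true S := sSup_le fun C hC => by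
      rw [maxGood_of_le hA' hA'PL hPLle] at hC
      exact maxGood_le_J hC.1
    have hBC : B ≤ Subgroup.centralizer (J p true PL : Set G) := by
      refine hgen _ fun x hx g => ?_
      obtain ⟨m, hm, l, hl, rfl⟩ := Subgroup.mem_sup_of_normal_right.1 (hfr.ge (Subgroup.mem_top g))
      have h1 : l * x * l⁻¹ ∈ B ⊓ Zs := (Subgroup.mem_normalizer_iff.1 (hLN hl) x).1 hx
      have h2 : l * x * l⁻¹ ∈ Subgroup.centralizer (J p true PL : Set G) := Subgroup.centralizer_le hJle h1.2.2
      have hmN := normalizer_le_normalizer_J (p := p) (el := true) PL hm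
      refine Subgroup.mem_centralizer_iff.2 fun j hj => ?_
      have hj' := (Subgroup.mem_normalizer_iff''.1 hmN j).1 hj
      have h3 : m⁻¹ * j * m * (l * x * l⁻¹) = l * x * l⁻¹ * (m⁻¹ * j * m) :=
        Subgroup.mem_centralizer_iff.1 h2 _ hj'
      calc j * (m * l * x * (m * l)⁻¹) = m * (m⁻¹ * j * m * (l * x * l⁻¹)) * m⁻¹ := by group
        _ = m * (l * x * l⁻¹ * (m⁻¹ * j * m)) * m⁻¹ := by rw [h3]
        _ = m * l * x * (m * l)⁻¹ * j := by group
    have hA'J : A' ≤ J p true PL := by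
      refine maxGood_le_J ?_
      rw [maxGood_of_le hA' hA'PL hPLle]; exact ⟨hA', hA'PL⟩
    refine hn (hgen _ fun x hx g => ?_)
    obtain ⟨hyB, hyp⟩ := hdiff x hx g
    have hyA' : g * x * g⁻¹ * x⁻¹ ∈ A' := mem_of_maxGood hA' (hBP hyB)
      (fun a ha => Subgroup.mem_centralizer_iff.1 (hBC hyB) a (hA'J ha)) (fun _ => hyp)
    have hxN : x ∈ Subgroup.normalizer (A : Set G) :=
      Subgroup.centralizer_le_normalizer _ (Subgroup.centralizer_le (maxGood_le_J hA) hx.2.2)
    simpa using Subgroup.mul_mem _ (hn' hyA') hxN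
  apply hAL
  intro a ha
  haveI hCn : (Subgroup.centralizer (B : Set G)).Normal := Subgroup.normal_centralizer
  set π := QuotientGroup.mk' (Subgroup.centralizer (B : Set G)) with hπ
  have hq : π a ∈ Cfsg.pCore p (G ⧸ Subgroup.centralizer (B : Set G)) := by
    refine ZJ.isPStableOn_of_isNormalizerPStable hst B hBp a ?_
    have h1 : ⁅B, Subgroup.zpowers a⁆ ≤ A := by
      refine Subgroup.commutator_le.2 fun b hb c hc => ?_
      rw [commutatorElement_def]
      exact A.mul_mem ((Subgroup.mem_normalizer_iff.1 (hBA hb) c).1 (Subgroup.zpowers_le.2 ha hc))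
        (A.inv_mem (Subgroup.zpowers_le.2 ha hc))
    rw [Subgroup.commutator_eq_bot_iff_le_centralizer]
    exact fun x hx => Subgroup.mem_centralizer_iff.2
      fun c hc => good_commute hA.2.1 (Subgroup.zpowers_le.2 ha hc) (h1 hx)
  haveI := Cfsg.pCore_normal p (G ⧸ Subgroup.centralizer (B : Set G))
  refine (Subgroup.normal_le_normalCore
    (N := (Cfsg.pCore p (G ⧸ Subgroup.centralizer (B : Set G))).comap π)).2 ?_ hq
  intro y hy
  have h1 : π y ∈ S.map π := by
    rw [hπ, hSdef, ← Sylow.coe_mapSurjective (QuotientGroup.mk'_surjective _) P]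
    exact CfsgLib.PCore.pCore_le_sylow _ hy
  obtain ⟨s, hs, hsy⟩ := h1
  have hc : y * s⁻¹ ∈ Subgroup.centralizer (B : Set G) := by
    rw [← QuotientGroup.eq_one_iff]
    show π (y * s⁻¹) = 1
    rw [map_mul, map_inv, hsy, mul_inv_cancel]
  have hcN : y * s⁻¹ ∈ Subgroup.normalizer ((B ⊓ Zs : Subgroup G) : Set G) :=
    Subgroup.centralizer_le_normalizer _ (Subgroup.centralizer_le (fun x hx => hx.1) hc)
  have hsN : s ∈ Subgroup.normalizer ((B ⊓ Zs : Subgroup G) : Set G) :=
    inf_le_normalizer ⟨(Subgroup.normalizer_eq_top (H := B)).ge (Subgroup.mem_top s), hPZ hs⟩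
  simpa using Subgroup.mul_mem _ hcN hsN

/-- **`Z(J(P))` is normal.** -/
theorem Z_normal [hp : Fact p.Prime] (hp2 : p ≠ 2) :
    ∀ (n : ℕ) (G : Type u) [Group G] [Finite G], Nat.card G ≤ n →
      Subgroup.centralizer (Cfsg.pCore p G : Set G) ≤ Cfsg.pCore p G → Cfsg.IsNormalizerPStable p G →
      ∀ P : Sylow p G, (Z p (P : Subgroup G)).Normal := by
  intro n
  induction n with
  | zero => intro G _ _ h; exact absurd h (by have := Nat.card_pos (α := G); omega)
  | succ n ih =>
    intro G _ _ hcard hc hst P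
    set S := (P : Subgroup G) with hS
    set N := Subgroup.normalClosure (J p true S : Set G) with hN
    by_cases htop : N = ⊤
    · have h := inf_normal_of_closure hp2 hst P htop _ (Cfsg.pCore p G) rfl (Cfsg.pCore_normal p G)
        (CfsgLib.PCore.isPGroup_pCore p G)
      rwa [inf_eq_right.2 (Z_le_pCore hc hst P)] at h
    haveI : N.Normal := Subgroup.normalClosure_normal
    have hlt : Nat.card N < Nat.card G := lt_of_le_of_ne (Subgroup.card_le_card_group N)
      fun e => htop (Subgroup.eq_top_of_card_eq N e)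
    obtain ⟨T, hT⟩ := CfsgLib.Transfer.exists_sylow_map_eq_inf P N
    have hnZ := ih N (by omega) (centralizer_pCore_normal hc N) (CfsgLib.StableQuot.isNormalizerPStable_subgroup hst N) T
    set PN := (T : Subgroup N).map N.subtype with hPN
    have hJ : J p true PN = J p true S := by
      rw [hT]
      exact J_eq_of_le (le_inf (J_le _) Subgroup.subset_normalClosure) inf_le_left
    have hZeq : (Z p (T : Subgroup N)).map N.subtype = Z p S := by
      rw [← Z_map N.subtype (fun x _ hx => N.subtype_injective (hx.trans (map_one _).symm)), ← hPN, Z, Z, hJ]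
    rw [← Subgroup.normalizer_eq_top_iff, eq_top_iff, ← (Sylow.normalizer_sup_eq_top T : _ ⊔ N = ⊤)]
    refine sup_le ((normalizer_le_normalizer_Z PN).trans_eq (by rw [Z, Z, hJ])) fun g hg => ?_
    rw [← hZeq]
    exact Subgroup.le_normalizer_map N.subtype ⟨⟨g, hg⟩, (Subgroup.normalizer_eq_top (H := Z p (T : Subgroup N))).ge
      (Subgroup.mem_top _), rfl⟩

end CfsgLib.ZJCenter
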